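import Cfsg.Agent.H776.P4.Stmts
import Cfsg.Agent.H199.PU.Coord

/-!
# S5210: (E2) (helper446)

`E` essential, `Y ≤ E`, `V ≰ E`: then `Z` is invariant.  Coordinates in `PG K`:

* `zz α` : the element of `Z` with coordinate `α`;
* `comm_PY` : `[w, g] = zz (- (r star b + star r b))` for `w ∈ Y`;
* `comm_PV_PV` : `V` is abelian; `comm_PV_mem` : `[V, S] ≤ Y`; `comm_PY_mem` : `[Y, S] ≤ Z`;
* `exists_comm_PY` : `[Y, g] = Z` for `g ∉ V`.
-/

set_option autoImplicit false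

namespace Cfsg.Agent.H446.P4

open Cfsg Cfsg.FusionSystem Cfsg.Agent.H776.P4 Cfsg.Agent.H776.P4.PG
open Cfsg.Agent.H756.PU (HypK Ess Inv Com StComm)

universe u

variable {K : Type u} [Field K] [StarRing K]

theorem mem_PZ {g : PG K} : g ∈ PZ K ↔ g.r = 0 ∧ g.b = 0 ∧ g.c = 0 := Iff.rfl
theorem mem_PY {g : PG K} : g ∈ PY K ↔ g.r = 0 ∧ g.c = 0 := Iff.rfl
theorem mem_PV {g : PG K} : g ∈ PV K ↔ g.r = 0 := Iff.rfl
theorem mem_PQ {g : PG K} : g ∈ PQ K ↔ g.c = 0 := Iff.rfl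

variable (K) in
theorem PZ_le_PY : PZ K ≤ PY K := fun _ h => ⟨h.1, h.2.2⟩
variable (K) in
theorem PY_le_PV : PY K ≤ PV K := fun _ h => h.1
variable (K) in
theorem PY_le_PQ : PY K ≤ PQ K := fun _ h => h.2

/-- the element of `Z` with coordinate `α` -/
def zz (α : K) (h : star α = α) : PG K where
  r := 0
  a := α
  b := 0
  c := 0
  ha := h
  hc := by simp

theorem zz_mem (α : K) (h : star α = α) : zz α h ∈ PZ K := ⟨rfl, rfl, rfl⟩

theorem eq_zz {g : PG K} (hg : g ∈ PZ K) : g = zz g.a g.ha := by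
  obtain ⟨h1, h2, h3⟩ := hg
  exact PG.ext h1 rfl h2 h3

theorem comm_PY_coord (x y : K) : star (-(x * star y + star x * y)) = -(x * star y + star x * y) := by
  simp only [star_neg, star_add, star_mul', star_star]
  ring

theorem comm_PY {w : PG K} (hw : w ∈ PY K) (g : PG K) :
    w * g * w⁻¹ * g⁻¹ = zz (-(g.r * star w.b + star g.r * w.b)) (comm_PY_coord _ _) := by
  obtain ⟨h1, h4⟩ := hw
  rw [H199.PU.comm_eq_iff]
  ext
  · simp [zz, h1]
  · simp only [zz, mul_a, mul_r, mul_b, mul_c, h1, h4, star_zero]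
    ring
  · simp only [zz, mul_b, mul_c, mul_r, h1, h4]
    ring
  · simp [zz, h4]

/-- `[Y, S] ≤ Z` -/
theorem comm_PY_mem {w : PG K} (hw : w ∈ PY K) (g : PG K) : w * g * w⁻¹ * g⁻¹ ∈ PZ K := by
  rw [comm_PY hw]
  exact zz_mem _ _

/-- `V` is abelian -/
theorem comm_PV_PV {v x : PG K} (hv : v ∈ PV K) (hx : x ∈ PV K) : v * x = x * v := by
  have h1 : v.r = 0 := hv
  have h2 : x.r = 0 := hx
  ext
  · simp [h1, h2]
  · simp only [mul_a, h1, h2, star_zero]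
    ring
  · simp only [mul_b, h1, h2]
    ring
  · simp only [mul_c]
    ring

/-- `[V, S] ≤ Y` -/
theorem comm_PV_mem {v : PG K} (hv : v ∈ PV K) (g : PG K) : v * g * v⁻¹ * g⁻¹ ∈ PY K := by
  have h1 : v.r = 0 := hv
  refine ⟨?_, ?_⟩
  · simp [h1]
  · simp

/-- `[Y, g] = Z` for `g ∉ V` -/
theorem exists_comm_PY {p n : ℕ} (hK : HypK K p n) {g z : PG K} (hg : g ∉ PV K) (hz : z ∈ PZ K) :
    ∃ w ∈ PY K, w * g * w⁻¹ * g⁻¹ = z := by
  obtain ⟨θ, hθ⟩ := H199.PU.exists_star hK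
  have hr : g.r ≠ 0 := hg
  have hr' : star g.r ≠ 0 := by
    intro h
    apply hr
    rw [← star_star g.r, h, star_zero]
  obtain ⟨b, hb⟩ : ∃ b : K, star g.r * b = - z.a * θ / (θ + star θ) :=
    ⟨(- z.a * θ / (θ + star θ)) / star g.r, by field_simp⟩
  have hsc : star (θ + star θ) = θ + star θ := by rw [star_add, star_star, add_comm]
  have hb' : g.r * star b = - z.a * star θ / (θ + star θ) := by
    have h1 := congrArg star hb
    rw [star_mul', star_star, star_div₀, star_mul', star_neg, hsc, z.ha] at h1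
    exact h1
  refine ⟨{ r := 0, a := 0, b := b, c := 0, ha := by simp, hc := by simp }, ⟨rfl, rfl⟩, ?_⟩
  rw [comm_PY ⟨rfl, rfl⟩, eq_zz hz]
  ext <;> simp only [zz]
  rw [hb, hb']
  field_simp
  ring

/-- the stabilizer of `Z` in `Aut(E)` -/
def stZ (E : Subgroup (PG K)) : Subgroup (MulAut E) where
  carrier := {g | ∀ e : E, (e : PG K) ∈ PZ K ↔ ((g e : E) : PG K) ∈ PZ K}
  one_mem' := fun _ => Iff.rfl
  mul_mem' := by
    intro a b ha hb e
    rw [hb e, ha (b e)]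
    rfl
  inv_mem' := by
    intro a ha e
    have h := ha (a⁻¹ e)
    have h1 : a (a⁻¹ e) = e := MulAut.apply_inv_self _ _ _
    rw [h1] at h
    exact h.symm

/-- if `g⁻¹(Z) ≤ Z` then `g` stabilizes `Z` -/
theorem mem_stZ [Finite (PG K)] {E : Subgroup (PG K)} {g : MulAut E}
    (h : ∀ e : E, (e : PG K) ∈ PZ K → ((g⁻¹ e : E) : PG K) ∈ PZ K) : g ∈ stZ E := by
  have hfin : Finite {e : E // (e : PG K) ∈ PZ K} := inferInstance
  have hbij : Function.Bijective (fun e : {e : E // (e : PG K) ∈ PZ K} =>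
      (⟨g⁻¹ e.1, h e.1 e.2⟩ : {e : E // (e : PG K) ∈ PZ K})) := by
    refine Function.Injective.bijective_of_finite fun a b hab => ?_
    apply Subtype.ext
    exact g⁻¹.injective (congrArg Subtype.val hab)
  intro e
  constructor
  · intro he
    obtain ⟨⟨y, hy⟩, hye⟩ := hbij.2 ⟨e, he⟩
    have h1 : g⁻¹ y = e := congrArg Subtype.val hye
    have h2 : g e = y := by rw [← h1]; exact MulAut.apply_inv_self _ _ _
    rw [h2]; exact hy
  · intro he
    have h1 := h (g e) he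
    have h2 : g⁻¹ (g e) = e := MulAut.inv_apply_self _ _ _
    rwa [h2] at h1

/-- for `g ∉ Γ₀` the group `g(Y)` lies in `V` -/
theorem map_PY_le {p n : ℕ} (hK : HypK K p n) [Finite (PG K)] {E : Subgroup (PG K)} (hE : PY K ≤ E) {g : MulAut E}
    (hg : g ∉ stZ E) (y : E) (hy : (y : PG K) ∈ PY K) : ((g y : E) : PG K) ∈ PV K := by
  by_contra hcon
  apply hg
  refine mem_stZ fun e he => ?_
  obtain ⟨w, hw, hwe⟩ := exists_comm_PY hK hcon he
  -- `e = [w, g y]`, so `g⁻¹ e = [g⁻¹ w, y] ∈ [E, Y] ≤ Z`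
  have h1 : e = (⟨w, hE hw⟩ : E) * g y * (⟨w, hE hw⟩ : E)⁻¹ * (g y)⁻¹ := Subtype.ext hwe.symm
  have h2 : g⁻¹ e = (g⁻¹ ⟨w, hE hw⟩) * y * (g⁻¹ ⟨w, hE hw⟩)⁻¹ * y⁻¹ := by
    have h3 : g⁻¹ (g y) = y := MulAut.inv_apply_self _ _ _
    rw [h1]
    simp only [map_mul, map_inv, h3]
  rw [h2]
  have h4 := (PZ K).inv_mem (comm_PY_mem hy ((g⁻¹ ⟨w, hE hw⟩ : E) : PG K))
  have h5 : (((g⁻¹ ⟨w, hE hw⟩) * y * (g⁻¹ ⟨w, hE hw⟩)⁻¹ * y⁻¹ : E) : PG K) =
      ((y : PG K) * ((g⁻¹ ⟨w, hE hw⟩ : E) : PG K) * (y : PG K)⁻¹ * ((g⁻¹ ⟨w, hE hw⟩ : E) : PG K)⁻¹)⁻¹ := by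
    push_cast
    group
  rw [h5]
  exact h4

/-- **(E2)** -/
theorem stE2 (hComm : StComm.{u}) : StE2.{u} := by
  intro K _ _ p n hK E Γ hEss hE hV
  have hfin : Finite (PG K) := by
    have := hEss.fin
    exact Finite.of_equiv (⊤ : Subgroup (PG K)) Subgroup.topEquiv.toEquiv
  have hΓ : Γ ≤ stZ E := by
    refine hComm hEss (stZ E) (PV K) ?_ hV ?_
    · intro v hv
      refine ⟨Subgroup.mem_top _, ?_⟩
      have key : ∀ v ∈ PV K, ∀ e ∈ E, v * e * v⁻¹ ∈ E := by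
        intro v hv e he
        have h1 := E.mul_mem (hE (comm_PV_mem hv e)) he
        have h2 : v * e * v⁻¹ * e⁻¹ * e = v * e * v⁻¹ := by group
        rwa [h2] at h1
      refine Subgroup.mem_normalizer_iff.2 fun e => ⟨fun he => key v hv e he, fun he => ?_⟩
      have h1 := key v⁻¹ ((PV K).inv_mem hv) _ he
      have h2 : v⁻¹ * (v * e * v⁻¹) * v⁻¹⁻¹ = e := by group
      rwa [h2] at h1
    · intro g hg hg0 a ha b hb α β hα hβ
      have hg0' : g⁻¹ ∉ stZ E := fun h => hg0 (inv_inv g ▸ (stZ E).inv_mem h)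
      -- `α` centralizes `g(Y)`, `β` centralizes `g⁻¹(Y)`
      have hα1 : ∀ y : E, (y : PG K) ∈ PY K → α (g y) = g y := by
        intro y hy
        apply Subtype.ext
        rw [hα, comm_PV_PV ha (map_PY_le hK hE hg0 y hy)]
        group
      have hβ1 : ∀ y : E, (y : PG K) ∈ PY K → g (β (g⁻¹ y)) = y := by
        intro y hy
        have h1 : β (g⁻¹ y) = g⁻¹ y := by
          apply Subtype.ext
          rw [hβ, comm_PV_PV hb (map_PY_le hK hE hg0' y hy)]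
          group
        rw [h1]
        exact MulAut.apply_inv_self _ _ _
      -- `α e = z e` with `z ∈ Y`
      have hza : ∀ e : E, ((α e * e⁻¹ : E) : PG K) ∈ PY K := by
        intro e
        have h1 := comm_PV_mem ha (e : PG K)
        have h2 : ((α e * e⁻¹ : E) : PG K) = a * (e : PG K) * a⁻¹ * (e : PG K)⁻¹ := by
          push_cast
          rw [hα]
        rw [h2]; exact h1
      have hzb : ∀ e : E, ((β e * e⁻¹ : E) : PG K) ∈ PY K := by
        intro e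
        have h1 := comm_PV_mem hb (e : PG K)
        have h2 : ((β e * e⁻¹ : E) : PG K) = b * (e : PG K) * b⁻¹ * (e : PG K)⁻¹ := by
          push_cast
          rw [hβ]
        rw [h2]; exact h1
      apply MulEquiv.ext
      intro e
      have e1 : (α * (g * β * g⁻¹)) e = α (g (β (g⁻¹ e))) := rfl
      have e2 : ((g * β * g⁻¹) * α) e = g (β (g⁻¹ (α e))) := rfl
      rw [e1, e2]
      -- `g β g⁻¹ e = g(z) e`
      obtain ⟨z, hz, hz'⟩ : ∃ z : E, (z : PG K) ∈ PY K ∧ β (g⁻¹ e) = z * g⁻¹ e :=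
        ⟨β (g⁻¹ e) * (g⁻¹ e)⁻¹, hzb _, by group⟩
      obtain ⟨y, hy, hy'⟩ : ∃ y : E, (y : PG K) ∈ PY K ∧ α e = y * e := ⟨α e * e⁻¹, hza _, by group⟩
      have h1 : g (g⁻¹ e) = e := MulAut.apply_inv_self _ _ _
      have h2 : g (β (g⁻¹ e)) = g z * e := by rw [hz', map_mul, h1]
      have h3 : g (β (g⁻¹ (y * e))) = g (β (g⁻¹ y)) * g (β (g⁻¹ e)) := by simp only [map_mul]
      rw [h2, map_mul, hα1 z hz, hy', h3, hβ1 y hy, h2]
      -- `y` and `g z` commute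
      have h4 : g z * y = y * g z := by
        apply Subtype.ext
        exact (comm_PV_PV (PY_le_PV K hy) (map_PY_le hK hE hg0 z hz)).symm
      rw [← mul_assoc, ← mul_assoc, h4]
  refine ⟨(PZ_le_PY K).trans hE, fun γ hγ e he => ((hΓ hγ) e).1 he⟩

end Cfsg.Agent.H446.P4
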